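import Cfsg.Agent.Lib.ClassSizesThreeIto.Basic
import Cfsg.Agent.Lib.ClassSizesFour.Common
import Cfsg.Agent.Lib.CoprimeAction.Basic

/-!
A solvable group in which all noncentral elements of prime power order have one class size is
nilpotent (via Thompson's `P × Q` lemma).
-/

set_option autoImplicit false

namespace CfsgLib.ClassSizesThreeIto

open Subgroup CfsgLib.ClassSizes3 CfsgLib.ClassSizesFour

variable {K : Type*} [Group K] [Finite K]

/-- All noncentral elements of prime power order have the same class size. -/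
def PrimarySame (K : Type*) [Group K] : Prop :=
  ∀ (s t : ℕ) (a b : K), s.Prime → t.Prime → PEl s a → PEl t b → a ∉ center K → b ∉ center K →
    cl a = cl b

/-- An `r`-element centralises every normal `p`-subgroup. -/
theorem PrimarySame.le_C (h : PrimarySame K) {p r : ℕ} [hp : Fact p.Prime] (hr : r.Prime)
    (hrp : r ≠ p) {A : Subgroup K} [hAn : A.Normal] (hA : IsPGroup p A) {b : K} (hb : PEl r b) :
    A ≤ C b := by
  intro w₀ hw₀
  by_cases hbc : b ∈ center K
  · rw [C_eq_top.mpr hbc]
    exact mem_top _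
  obtain ⟨D, hD⟩ := exists_sylowIn (p := p) (C b)
  set f := QuotientGroup.mk' (center K) with hf
  have key : ∀ w ∈ A, (∀ g ∈ D, w⁻¹ * (g * w * g⁻¹) ∈ center K) → w ∈ C b := by
    intro w hw hfix
    by_contra hwb
    set a := w⁻¹ * (b * w * b⁻¹) with ha
    have haA : a ∈ A := mul_mem (inv_mem hw) (hAn.conj_mem w hw b)
    have hap : PEl p a := PEl.of_mem hA haA
    have hne : ¬ Commute b a := fun hc => hwb (C_comm (mem_C.mpr (by
      have h1 : a = 1 := eq_one_of_iterate (g := w) hp.out hr hrp.symm hb hap hc (by rw [ha]; group)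
      rw [ha, inv_mul_eq_one] at h1
      exact mul_inv_eq_iff_eq_mul.mp h1.symm)))
    have hac : a ∉ center K := fun hz => hne (mem_center_iff.mp hz b)
    have hDa : ∀ g ∈ D, g ∈ C a := by
      intro g hg
      have hgb : g * b = b * g := mem_C.mp (hD.le hg)
      have hz := hfix g hg
      set z := w⁻¹ * (g * w * g⁻¹) with hzdef
      have h1 : g * w * g⁻¹ = w * z := by rw [hzdef, mul_inv_cancel_left]
      have h2 : g * (b * w * b⁻¹) * g⁻¹ = b * w * b⁻¹ * z := by
        calc g * (b * w * b⁻¹) * g⁻¹ = (g * b) * w * (g * b)⁻¹ := by group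
          _ = (b * g) * w * (b * g)⁻¹ := by rw [hgb]
          _ = b * (g * w * g⁻¹) * b⁻¹ := by group
          _ = b * (w * z) * b⁻¹ := by rw [h1]
          _ = b * w * (z * b⁻¹) := by group
          _ = b * w * (b⁻¹ * z) := by rw [mem_center_iff.mp hz b⁻¹]
          _ = b * w * b⁻¹ * z := by group
      refine mem_C.mpr (mul_inv_eq_iff_eq_mul.mp ?_)
      calc g * a * g⁻¹ = (g * w * g⁻¹)⁻¹ * (g * (b * w * b⁻¹) * g⁻¹) := by rw [ha]; group
        _ = z⁻¹ * (a * z) := by rw [h1, h2, ha]; group
        _ = a := by rw [mem_center_iff.mp hz a, inv_mul_cancel_left]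
    have hP : IsPGroup p (zpowers a ⊔ D : Subgroup K) := by
      refine hap.isPGroup.to_sup_of_normal_right' hD.isPGroup (zpowers_le.mpr ?_)
      exact centralizer_le_normalizer _
        (mem_centralizer_iff.mpr fun g hg => mem_C.mp (hDa g hg))
    have hcard := card_le_of_isPGroup hP
      (sup_le (zpowers_le.mpr (self_mem_C a)) (fun g hg => hDa g hg))
    have hCC : Nat.card (C a) = Nat.card (C b) := by
      have h1 := card_C_mul_cl a
      rw [← card_C_mul_cl b, h p r a b hp.out hr hap hb hac hbc] at h1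
      exact Nat.eq_of_mul_eq_mul_right (cl_pos b) h1
    rw [hCC, ← hD.card] at hcard
    have haD : a ∈ D := by
      rw [eq_of_le_of_card_ge le_sup_right hcard]
      exact mem_sup_left (mem_zpowers a)
    exact hne (show b * a = a * b from (mem_C.mp (hD.le haD)).symm)
  have hsub : zpowers (f b) ≤ centralizer (A.map f : Set (K ⧸ center K)) := by
    refine CfsgLib.CoprimeAction.pxq (p := p) (P := D.map f) (hD.isPGroup.map f) ?_ (hA.map f)
      ?_ ?_ ?_ ?_
    · rw [Nat.card_zpowers]
      exact (orderOf_coprime_of_pel hp.out hr hrp hb).coprime_dvd_left (orderOf_map_dvd f b)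
    · rintro _ ⟨g, hg, rfl⟩
      refine mem_centralizer_iff.mpr fun y hy => ?_
      obtain ⟨i, rfl⟩ := mem_zpowers_iff.mp hy
      refine ((Commute.zpow_right ?_ i) : Commute (f g) (f b ^ i)).eq.symm
      show f g * f b = f b * f g
      rw [← map_mul, ← map_mul, mem_C.mp (hD.le hg)]
    · have := hAn.map f (QuotientGroup.mk'_surjective _)
      exact le_normalizer_of_normal
    · have := hAn.map f (QuotientGroup.mk'_surjective _)
      exact le_normalizer_of_normal
    · rintro _ ⟨⟨w, hw, rfl⟩, hc⟩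
      refine mem_centralizer_iff.mpr fun y hy => ?_
      obtain ⟨i, rfl⟩ := mem_zpowers_iff.mp hy
      have hwb : w ∈ C b := key w hw fun g hg => by
        have h1 := mem_centralizer_iff.mp hc (f g) (mem_map_of_mem f hg)
        rw [← QuotientGroup.eq]
        show f w = f (g * w * g⁻¹)
        rw [map_mul, map_mul, h1, map_inv, mul_inv_cancel_right]
      refine ((Commute.zpow_right ?_ i) : Commute (f w) (f b ^ i)).eq.symm
      show f w * f b = f b * f w
      rw [← map_mul, ← map_mul, mem_C.mp hwb]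
  have h2 := mem_centralizer_iff.mp (hsub (mem_zpowers (f b))) (f w₀) (mem_map_of_mem f hw₀)
  have hz : w₀⁻¹ * (b * w₀ * b⁻¹) ∈ center K := by
    rw [← QuotientGroup.eq]
    show f w₀ = f (b * w₀ * b⁻¹)
    rw [map_mul, map_mul, ← h2, map_inv, mul_inv_cancel_right]
  exact C_comm (commute_of_central_shift hr hp.out hrp hb (PEl.of_mem hA hw₀) hz
    (mul_inv_cancel_left w₀ _).symm)

/-- A solvable group with one class size for noncentral elements of prime power order is
nilpotent. -/
theorem PrimarySame.isNilpotent [Group.IsSolvable K] (h : PrimarySame K) :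
    Group.IsNilpotent K := by
  refine ((Group.isNilpotent_of_finite_tfae (G := K)).out 0 3 rfl rfl).mpr ?_
  intro r hr R
  have hcent : ∀ (s : ℕ), s.Prime → ∀ {t : ℕ} {g : K}, t.Prime → PEl t g → t ≠ s →
      ∀ d ∈ Cfsg.pCore s K, g * d = d * g := fun s hs {t g} ht hg hts d hd => by
    have : Fact s.Prime := ⟨hs⟩
    exact (mem_C.mp (h.le_C ht hts (CfsgLib.Cores.isPGroup_pCore s K) hg hd)).symm
  have hR : SylowIn r ⊤ (R : Subgroup K) :=
    ⟨le_top, R.isPGroup', by rw [R.card_eq_multiplicity, card_top]⟩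
  have hFN : Cfsg.fittingSubgroup K ≤ normalizer ((R : Subgroup K) : Set K) := by
    rw [CfsgLib.Cores.fittingSubgroup_eq_iSup_pCore]
    refine iSup_le fun s d hd => ?_
    by_cases hsr : (s : ℕ) = r
    · exact le_normalizer (CfsgLib.Cores.pCore_le_sylow R (hsr ▸ hd))
    · exact centralizer_le_normalizer _ (mem_centralizer_iff.mpr fun a ha =>
        hcent s (Nat.prime_of_mem_primeFactors s.2) hr.out (PEl.of_mem R.isPGroup' ha)
          (Ne.symm hsr) d hd)
  have hconj : ∀ {t : ℕ} {g : K}, t.Prime → t ≠ r → PEl t g → ∀ a ∈ (R : Subgroup K),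
      g * a * g⁻¹ ∈ (R : Subgroup K) := by
    intro t g ht htr hg a ha
    have hap := PEl.of_mem R.isPGroup' ha
    have hc : g * a * g⁻¹ * a⁻¹ ∈ centralizer (Cfsg.fittingSubgroup K : Set K) := by
      have hle : Cfsg.fittingSubgroup K ≤ C (g * a * g⁻¹ * a⁻¹) := by
        rw [CfsgLib.Cores.fittingSubgroup_eq_iSup_pCore]
        refine iSup_le fun s d hd => mem_C.mpr ?_
        have hs := Nat.prime_of_mem_primeFactors s.2
        have hOn : (Cfsg.pCore (s : ℕ) K).Normal := inferInstance
        suffices g * a * g⁻¹ * a⁻¹ * d * (g * a * g⁻¹ * a⁻¹)⁻¹ = d from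
          (mul_inv_eq_iff_eq_mul.mp this).symm
        by_cases hsr : (s : ℕ) = r
        · have h1 := hcent s hs ht hg (hsr ▸ htr) _ (hOn.conj_mem' d hd a)
          have h2 := hcent s hs ht hg (hsr ▸ htr) d hd
          calc g * a * g⁻¹ * a⁻¹ * d * (g * a * g⁻¹ * a⁻¹)⁻¹
              = g * a * g⁻¹ * ((a⁻¹ * d * a) * g) * a⁻¹ * g⁻¹ := by group
            _ = g * a * g⁻¹ * (g * (a⁻¹ * d * a)) * a⁻¹ * g⁻¹ := by rw [h1]
            _ = g * d * g⁻¹ := by group
            _ = d := by rw [h2, mul_inv_cancel_right]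
        · have h1 := hcent s hs hr.out hap (Ne.symm hsr) _ (hOn.conj_mem' d hd g)
          have h2 := hcent s hs hr.out hap (Ne.symm hsr) d hd
          calc g * a * g⁻¹ * a⁻¹ * d * (g * a * g⁻¹ * a⁻¹)⁻¹
              = g * a * g⁻¹ * (a⁻¹ * (d * a)) * g * a⁻¹ * g⁻¹ := by group
            _ = g * a * g⁻¹ * (a⁻¹ * (a * d)) * g * a⁻¹ * g⁻¹ := by rw [h2]
            _ = g * (a * (g⁻¹ * d * g)) * a⁻¹ * g⁻¹ := by group
            _ = g * ((g⁻¹ * d * g) * a) * a⁻¹ * g⁻¹ := by rw [h1]
            _ = d := by group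
      exact mem_centralizer_iff.mpr fun d hd => mem_C.mp (hle hd)
    refine hR.mem_of_normalizes (hap.conj g) (mem_top _) ?_
    rw [show g * a * g⁻¹ = g * a * g⁻¹ * a⁻¹ * a by group]
    exact mul_mem (hFN (CfsgLib.Cores.centralizer_fittingSubgroup_le hc)) (le_normalizer ha)
  rw [← normalizer_eq_top_iff, ← index_eq_one]
  by_contra hne
  obtain ⟨t, ht, htd⟩ := Nat.exists_prime_and_dvd hne
  have : Fact t.Prime := ⟨ht⟩
  by_cases htr : t = r
  · subst htr
    exact R.not_dvd_index (htd.trans (index_dvd_of_le le_normalizer))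
  · obtain ⟨T⟩ : Nonempty (Sylow t K) := inferInstance
    refine T.not_dvd_index (htd.trans (index_dvd_of_le fun g hg => mem_normalizer_iff.mpr fun a =>
      ⟨hconj ht htr (PEl.of_mem T.isPGroup' hg) a, fun ha => ?_⟩))
    have := hconj ht htr (PEl.of_mem T.isPGroup' hg).inv _ ha
    simpa [mul_assoc] using this

end CfsgLib.ClassSizesThreeIto
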